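import Cfsg.Agent.S0752
set_option autoImplicit false

/-!
The rank of an alternating matrix is even.
-/

namespace CfsgLib.AltRank

open Matrix

variable {F : Type*} [Field F] {ι : Type*} [Fintype ι] [DecidableEq ι]

theorem even_rank (M : Matrix ι ι F) (h : ∀ v : ι → F, v ⬝ᵥ (M *ᵥ v) = 0) : Even M.rank := by
  classical
  set B : LinearMap.BilinForm F (ι → F) := Matrix.toBilin' M with hB
  have hBapp : ∀ x y, B x y = x ⬝ᵥ (M *ᵥ y) := fun x y => Matrix.toBilin'_apply' M x y
  have halt : B.IsAlt := fun x => by rw [hBapp]; exact h x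
  obtain ⟨m, k, b, hef, hee, hff, hrad⟩ := Cfsg.Agent.S0752.result B halt
  have hfe : ∀ i j : Fin m, B (b (Sum.inl (Sum.inr i))) (b (Sum.inl (Sum.inl j))) = if i = j then -1 else 0 := by
    intro i j
    rw [← LinearMap.IsAlt.neg halt, hef]
    by_cases hij : i = j <;> simp [hij, Ne.symm]
  have hker : LinearMap.ker (Mᵀ).mulVecLin = Submodule.span F (Set.range (fun j : Fin k => b (Sum.inr j))) := by
    refine le_antisymm (fun x hx => ?_) ?_
    · rw [LinearMap.mem_ker, Matrix.mulVecLin_apply, Matrix.mulVec_transpose] at hx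
      have hx0 : ∀ y, B x y = 0 := fun y => by rw [hBapp, Matrix.dotProduct_mulVec, hx, zero_dotProduct]
      have hsum := b.sum_repr x
      have hl : ∀ s : Fin m ⊕ Fin m, b.repr x (Sum.inl s) = 0 := by
        rintro (j | j)
        · have := congrArg (fun z => B z (b (Sum.inl (Sum.inr j)))) hsum
          simp only [map_sum, map_smul, LinearMap.sum_apply, LinearMap.smul_apply, smul_eq_mul, hx0] at this
          simpa [map_sum, Fintype.sum_sum_type, hef, hff, hrad] using this
        · have := congrArg (fun z => B z (b (Sum.inl (Sum.inl j)))) hsum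
          simp only [map_sum, map_smul, LinearMap.sum_apply, LinearMap.smul_apply, smul_eq_mul, hx0] at this
          simpa [map_sum, Fintype.sum_sum_type, hfe, hee, hrad] using this
      rw [← hsum, Fintype.sum_sum_type]
      simp only [hl, zero_smul, Finset.sum_const_zero, zero_add]
      exact Submodule.sum_mem _ fun j _ => Submodule.smul_mem _ _ (Submodule.subset_span ⟨j, rfl⟩)
    · rw [Submodule.span_le]
      rintro _ ⟨j, rfl⟩
      rw [SetLike.mem_coe, LinearMap.mem_ker, Matrix.mulVecLin_apply, Matrix.mulVec_transpose]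
      refine dotProduct_eq_zero _ fun w => ?_
      rw [← Matrix.dotProduct_mulVec, ← hBapp]
      exact hrad j w
  have hk : Module.finrank F (LinearMap.ker (Mᵀ).mulVecLin) = k := by
    rw [hker]
    exact (finrank_span_eq_card (b.linearIndependent.comp _ Sum.inr_injective)).trans (Fintype.card_fin k)
  have hn : Fintype.card ι = m + m + k := by
    rw [← Module.finrank_fintype_fun_eq_card F, Module.finrank_eq_card_basis b]
    simp
  have := LinearMap.finrank_range_add_finrank_ker (Mᵀ).mulVecLin
  rw [hk, Module.finrank_fintype_fun_eq_card, hn] at this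
  refine ⟨m, ?_⟩
  rw [← Matrix.rank_transpose, Matrix.rank]
  omega

end CfsgLib.AltRank
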