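import Cfsg.Agent.Forms.Matrix
import Cfsg.Prelude.Def_SporadicB

/-!
Orthogonal transvections over the field with two elements.
-/

set_option autoImplicit false

open QuadraticMap Matrix

namespace CfsgLib.Forms.TwoTransp

variable {ι : Type} [Fintype ι] [DecidableEq ι]

theorem z2 : ∀ a : ZMod 2, a = 0 ∨ a = 1 := by decide

theorem z2_neg : ∀ a : ZMod 2, -a = a := by decide

theorem refl_mulVec (Q : QuadraticForm (ZMod 2) (ι → ZMod 2)) {u : ι → ZMod 2} (hu : Q u ≠ 0) (x : ι → ZMod 2) :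
    ((reflGL Q u hu : GL ι (ZMod 2)) : Matrix ι ι (ZMod 2)) *ᵥ x = x + polar Q x u • u := by
  rw [coe_reflGL, reflectionMatrix_mulVec, (z2 (Q u)).resolve_left hu, inv_one, one_mul, sub_eq_add_neg, ← neg_smul, z2_neg]

theorem ext_mv {Q : QuadraticForm (ZMod 2) (ι → ZMod 2)} {g h : Cfsg.isometryGroup (ZMod 2) ⇑Q}
    (e : ∀ x, ((g : GL ι (ZMod 2)) : Matrix ι ι (ZMod 2)) *ᵥ x = ((h : GL ι (ZMod 2)) : Matrix ι ι (ZMod 2)) *ᵥ x) : g = h :=
  Subtype.ext (Units.ext (Matrix.ext_iff_mulVec.2 e))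

theorem coe_mul_mv {Q : QuadraticForm (ZMod 2) (ι → ZMod 2)} (g h : Cfsg.isometryGroup (ZMod 2) ⇑Q) (x : ι → ZMod 2) :
    ((↑(g * h) : GL ι (ZMod 2)) : Matrix ι ι (ZMod 2)) *ᵥ x =
      ((g : GL ι (ZMod 2)) : Matrix ι ι (ZMod 2)) *ᵥ (((h : GL ι (ZMod 2)) : Matrix ι ι (ZMod 2)) *ᵥ x) := by
  rw [Subgroup.coe_mul, Units.val_mul, Matrix.mulVec_mulVec]

theorem conj_refl_mv {Q : QuadraticForm (ZMod 2) (ι → ZMod 2)} (g : Cfsg.isometryGroup (ZMod 2) ⇑Q) {u : ι → ZMod 2} (hu : Q u ≠ 0)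
    (hgu : Q (((g : GL ι (ZMod 2)) : Matrix ι ι (ZMod 2)) *ᵥ u) ≠ 0) :
    g * reflGL Q u hu = reflGL Q _ hgu * g := by
  refine ext_mv fun x => ?_
  rw [coe_mul_mv, coe_mul_mv, refl_mulVec, refl_mulVec, Matrix.mulVec_add, Matrix.mulVec_smul]
  congr 2
  simp only [polar, ← Matrix.mulVec_add, mem_isometryGroup.1 g.2]

theorem rank_one_iff (Q : QuadraticForm (ZMod 2) (ι → ZMod 2)) (hQ : (polarBilin Q).Nondegenerate)
    (g : Cfsg.isometryGroup (ZMod 2) ⇑Q) :
    (((g : GL ι (ZMod 2)) : Matrix ι ι (ZMod 2)) - 1).rank = 1 ↔ ∃ u, ∃ hu : Q u ≠ 0, g = reflGL Q u hu := by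
  constructor
  · intro h
    obtain ⟨⟨v, hvm⟩, hv0, hspan⟩ := finrank_eq_one_iff'.1
      (show Module.finrank (ZMod 2) (LinearMap.range (((g : GL ι (ZMod 2)) : Matrix ι ι (ZMod 2)) - 1).mulVecLin) = 1 from h)
    have hv : v ≠ 0 := fun e => hv0 (Subtype.ext e)
    have hφ : ∀ x, ∃ c : ZMod 2, ((g : GL ι (ZMod 2)) : Matrix ι ι (ZMod 2)) *ᵥ x = x + c • v := fun x => by
      obtain ⟨c, hc⟩ := hspan ⟨_, LinearMap.mem_range_self _ x⟩
      refine ⟨c, ?_⟩
      have hc' : c • v = (((g : GL ι (ZMod 2)) : Matrix ι ι (ZMod 2)) - 1) *ᵥ x := congrArg Subtype.val hc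
      rw [hc', sub_mulVec, one_mulVec, add_sub_cancel]
    choose φ hφ using hφ
    have hiso : ∀ x, φ x * (φ x * Q v + polar Q x v) = 0 := fun x => by
      have e := mem_isometryGroup.1 g.2 x
      rw [hφ, map_add_smul] at e
      linear_combination e
    have hadd : ∀ x y, φ (x + y) = φ x + φ y := fun x y => by
      have e := hφ (x + y)
      rw [Matrix.mulVec_add, hφ, hφ, add_add_add_comm, ← add_smul] at e
      exact (smul_left_injective (ZMod 2) hv (add_left_cancel e)).symm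
    obtain ⟨y, hy⟩ : ∃ y, φ y = 1 := by
      by_contra hc
      push Not at hc
      have : ((g : GL ι (ZMod 2)) : Matrix ι ι (ZMod 2)) - 1 = 0 := Matrix.ext_iff_mulVec.2 fun x => by
        rw [sub_mulVec, one_mulVec, hφ, (z2 _).resolve_right (hc x), zero_smul, add_zero, sub_self, zero_mulVec]
      rw [this, rank_zero] at h
      exact zero_ne_one h
    have hQv : Q v ≠ 0 := by
      intro h0
      have hpol : ∀ x, φ x = 1 → polar Q x v = 0 := fun x hx => by simpa [hx, h0] using hiso x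
      refine hv (polar_ext hQ fun z => ?_)
      rw [polar_comm]
      rcases z2 (φ z) with hz | hz
      · have h1 := hpol (z + y) (by rw [hadd, hz, hy, zero_add])
        rw [polar_add_left, hpol y hy, add_zero] at h1
        exact h1
      · exact hpol z hz
    have hv1 : Q v = 1 := (z2 _).resolve_left hQv
    have hpol : ∀ x, φ x = 1 → polar Q x v = 1 := fun x hx => by
      have e := hiso x
      rw [hx, hv1] at e
      have h20 : (2 : ZMod 2) = 0 := rfl
      linear_combination e - h20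
    refine ⟨v, hQv, ext_mv fun x => ?_⟩
    rw [refl_mulVec, hφ]
    congr 2
    rcases z2 (φ x) with hx | hx
    · have h1 := hpol (x + y) (by rw [hadd, hx, hy, zero_add])
      rw [polar_add_left, hpol y hy] at h1
      rw [hx]; linear_combination -h1
    · rw [hx, hpol x hx]
  · rintro ⟨u, hu, rfl⟩
    have hu0 : u ≠ 0 := fun e => hu (by rw [e, QuadraticMap.map_zero])
    have hr : LinearMap.range (((reflGL Q u hu : GL ι (ZMod 2)) : Matrix ι ι (ZMod 2)) - 1).mulVecLin =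
        Submodule.span (ZMod 2) {u} := by
      obtain ⟨y, hy⟩ : ∃ y, polar Q y u ≠ 0 := by
        by_contra hc; push Not at hc
        exact hu0 (polar_ext hQ fun y => by rw [polar_comm]; exact hc y)
      refine le_antisymm ?_ ((Submodule.span_singleton_le_iff_mem _ _).2 ⟨y, ?_⟩)
      · rintro _ ⟨x, rfl⟩
        rw [mulVecLin_apply, sub_mulVec, one_mulVec, refl_mulVec, add_sub_cancel_left]
        exact Submodule.smul_mem _ _ (Submodule.mem_span_singleton_self u)
      · rw [mulVecLin_apply, sub_mulVec, one_mulVec, refl_mulVec, add_sub_cancel_left, (z2 _).resolve_left hy, one_smul]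
    rw [Matrix.rank, hr]
    exact finrank_span_singleton hu0

theorem isThreeTranspositionClass (Q : QuadraticForm (ZMod 2) (ι → ZMod 2)) (hQ : (polarBilin Q).Nondegenerate)
    (hι : 5 ≤ Fintype.card ι) (hex : ∃ u, Q u ≠ 0) :
    Cfsg.IsThreeTranspositionClass {g : Cfsg.isometryGroup (ZMod 2) ⇑Q |
      (((g : GL ι (ZMod 2)) : Matrix ι ι (ZMod 2)) - 1).rank = 1} := by
  haveI : Fact (Nat.Prime 2) := ⟨Nat.prime_two⟩
  rw [show {g : Cfsg.isometryGroup (ZMod 2) ⇑Q | (((g : GL ι (ZMod 2)) : Matrix ι ι (ZMod 2)) - 1).rank = 1} =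
    {g | ∃ u, ∃ hu : Q u ≠ 0, g = reflGL Q u hu} from Set.ext (rank_one_iff Q hQ)]
  have hsq : ∀ u (hu : Q u ≠ 0), reflGL Q u hu * reflGL Q u hu = 1 := fun u hu => ext_mv fun x => by
    rw [coe_mul_mv, refl_mulVec, refl_mulVec, OneMemClass.coe_one, Units.val_one, one_mulVec]
    simp only [polar_add_left, polar_smul_left, polar_self, add_assoc, ← add_smul]
    rw [show (2 : ℕ) • Q u = 0 by rw [two_nsmul]; exact CharTwo.add_self_eq_zero _, smul_zero, add_zero,
      CharTwo.add_self_eq_zero, zero_smul, add_zero]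
  have hne : ∀ u (hu : Q u ≠ 0), reflGL Q u hu ≠ 1 := fun u hu e => by
    have := (rank_one_iff Q hQ (reflGL Q u hu)).2 ⟨u, hu, rfl⟩
    rw [e, OneMemClass.coe_one, Units.val_one, sub_self, rank_zero] at this
    exact zero_ne_one this
  have hval : ∀ {u} (hu : Q u ≠ 0) (g : Cfsg.isometryGroup (ZMod 2) ⇑Q),
      Q (((g : GL ι (ZMod 2)) : Matrix ι ι (ZMod 2)) *ᵥ u) ≠ 0 := fun hu g => by rwa [mem_isometryGroup.1 g.2]
  refine ⟨⟨?_, ?_⟩, ?_, ?_⟩
  · rintro _ ⟨u, hu, rfl⟩
    exact orderOf_eq_prime (by rw [pow_two, hsq]) (hne u hu)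
  · rintro _ ⟨v, hv, rfl⟩ _ ⟨w, hw, rfl⟩
    have hc := conj_refl_mv (reflGL Q v hv) hw (hval hw _)
    rcases z2 (polar Q w v) with h | h
    · left
      have e : ((reflGL Q v hv : GL ι (ZMod 2)) : Matrix ι ι (ZMod 2)) *ᵥ w = w := by
        rw [refl_mulVec, h, zero_smul, add_zero]
      simp only [e] at hc
      rw [pow_two, ← mul_assoc]
      calc reflGL Q v hv * reflGL Q w hw * reflGL Q v hv * reflGL Q w hw
          = reflGL Q w hw * (reflGL Q v hv * reflGL Q v hv) * reflGL Q w hw := by rw [hc, mul_assoc (reflGL Q w hw)]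
        _ = 1 := by rw [hsq, mul_one, hsq]
    · right
      have hc' := conj_refl_mv (reflGL Q w hw) hv (hval hv _)
      have e : ((reflGL Q v hv : GL ι (ZMod 2)) : Matrix ι ι (ZMod 2)) *ᵥ w = w + v := by
        rw [refl_mulVec, h, one_smul]
      have e' : ((reflGL Q w hw : GL ι (ZMod 2)) : Matrix ι ι (ZMod 2)) *ᵥ v = w + v := by
        rw [refl_mulVec, polar_comm, h, one_smul, add_comm]
      simp only [e] at hc
      simp only [e'] at hc'
      have hwv : Q (w + v) ≠ 0 := e ▸ hval hw (reflGL Q v hv)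
      replace hc : reflGL Q v hv * reflGL Q w hw = reflGL Q (w + v) hwv * reflGL Q v hv := hc
      replace hc' : reflGL Q w hw * reflGL Q v hv = reflGL Q (w + v) hwv * reflGL Q w hw := hc'
      have ha := hsq v hv
      have hb := hsq w hw
      generalize reflGL Q v hv = a, reflGL Q w hw = b, reflGL Q (w + v) hwv = c at *
      have key : a * b * a = b * a * b := by
        rw [hc, mul_assoc, ha, hc', mul_assoc, hb]
      calc (a * b) ^ 3 = a * b * a * (b * a * b) := by simp [pow_succ, mul_assoc]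
        _ = a * b * a * (a * b * a) := by rw [← key]
        _ = a * (b * (a * a) * b) * a := by group
        _ = 1 := by rw [ha, mul_one, hb, mul_one, ha]
  · obtain ⟨u₀, hu₀⟩ := hex
    refine ⟨reflGL Q u₀ hu₀, ⟨u₀, hu₀, rfl⟩, Set.ext fun g => ?_⟩
    show _ ↔ IsConj _ g
    rw [isConj_iff]
    constructor
    · rintro ⟨u, hu, rfl⟩
      have hu0 : u₀ ≠ 0 := fun e => hu₀ (by rw [e, QuadraticMap.map_zero])
      have hu0' : u ≠ 0 := fun e => hu (by rw [e, QuadraticMap.map_zero])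
      let ψ : Submodule.span (ZMod 2) {u₀} →ₗ[ZMod 2] (ι → ZMod 2) :=
        (LinearMap.toSpanSingleton (ZMod 2) _ u).comp
          (LinearEquiv.toSpanNonzeroSingleton (ZMod 2) _ u₀ hu0).symm.toLinearMap
      have hψ : ∀ x : Submodule.span (ZMod 2) {u₀}, ∃ c : ZMod 2, (x : ι → ZMod 2) = c • u₀ ∧ ψ x = c • u := fun x => by
        refine ⟨(LinearEquiv.toSpanNonzeroSingleton (ZMod 2) _ u₀ hu0).symm x, ?_, rfl⟩
        conv_lhs => rw [← (LinearEquiv.toSpanNonzeroSingleton (ZMod 2) _ u₀ hu0).apply_symm_apply x]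
        rfl
      obtain ⟨e, he, heu⟩ := witt hQ _ ψ
        ((smul_left_injective (ZMod 2) hu0').comp (LinearEquiv.toSpanNonzeroSingleton (ZMod 2) _ u₀ hu0).symm.injective)
        (fun x => by
          obtain ⟨c, hc, hc'⟩ := hψ x
          rw [hc, hc', QuadraticMap.map_smul, QuadraticMap.map_smul, (z2 (Q u)).resolve_left hu, (z2 (Q u₀)).resolve_left hu₀])
      let g₀ : Cfsg.isometryGroup (ZMod 2) ⇑Q := (isoEquiv Q).symm ⟨e, he⟩
      have hg₀ : ((g₀ : GL ι (ZMod 2)) : Matrix ι ι (ZMod 2)) *ᵥ u₀ = u := by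
        rw [← glEquiv_apply, show glEquiv (g₀ : GL ι (ZMod 2)) = e from
          congrArg Subtype.val ((isoEquiv Q).apply_symm_apply ⟨e, he⟩)]
        obtain ⟨c, hc, hc'⟩ := hψ ⟨u₀, Submodule.mem_span_singleton_self u₀⟩
        have : c = 1 := smul_left_injective (ZMod 2) hu0 (by simpa using hc.symm)
        rw [this, one_smul] at hc'
        exact (heu ⟨u₀, Submodule.mem_span_singleton_self u₀⟩).trans hc'
      refine ⟨g₀, ?_⟩
      rw [mul_inv_eq_iff_eq_mul, conj_refl_mv g₀ hu₀ (hval hu₀ _)]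
      simp only [hg₀]
    · rintro ⟨c, rfl⟩
      exact ⟨_, hval hu₀ c, by rw [mul_inv_eq_iff_eq_mul, conj_refl_mv c hu₀ (hval hu₀ c)]⟩
  · rw [eq_top_iff, ← closure_reflGL Q hQ (Or.inr (by omega))]
    refine Subgroup.closure_mono ?_
    rintro g ⟨u, hu, hg⟩
    exact ⟨u, hu, Subtype.ext (Units.ext (hg.trans (coe_reflGL Q u hu).symm))⟩

end CfsgLib.Forms.TwoTransp
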