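import Cfsg.Agent.Forms.EvenType
import Cfsg.Agent.Forms.Classify
set_option autoImplicit false

/-!
The type of an even-dimensional symmetric form via the discriminant.
-/

namespace CfsgLib.Forms

open QuadraticMap

variable {F V : Type*} [Field F] [Fintype F] [AddCommGroup V] [Module F V] [FiniteDimensional F V]

/-- `B` has a totally isotropic half-dimensional subspace iff its signed discriminant is a square. -/
theorem exists_isotropic_half_iff (h2 : (2 : F) ≠ 0) {B : LinearMap.BilinForm F V} (hS : B.IsSymm)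
    (hB : B.Nondegenerate) {m : ℕ} (hm : 1 ≤ m) (hV : Module.finrank F V = 2 * m) {ι : Type*} [Fintype ι]
    [DecidableEq ι] (b : Module.Basis ι F V) :
    (∃ X : Submodule F V, Module.finrank F X = m ∧ ∀ x ∈ X, ∀ y ∈ X, B x y = 0) ↔
      IsSquare ((-1) ^ m * (LinearMap.BilinForm.toMatrix b B).det) := by
  classical
  set Q : QuadraticForm F V := B.toQuadraticMap with hQdef
  have hpol : ∀ x y, polar Q x y = 2 * B x y := fun x y => by
    simp [Q, polar, LinearMap.BilinMap.toQuadraticMap_apply, hS.eq]; ring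
  have hQ : (polarBilin Q).Nondegenerate := nondegenerate_iff.2 fun x hx => hB.1 x fun y => by
    simpa [hpol, h2] using hx y
  have hiso : ∀ X : Submodule F V, (∀ v ∈ X, Q v = 0) → ∀ x ∈ X, ∀ y ∈ X, B x y = 0 := fun X h x hx y hy => by
    have := hpol x y
    rw [polar, h x hx, h y hy, h _ (add_mem hx hy)] at this
    simpa [h2] using this.symm
  have hgram : (gram ⇑Q ⇑b).det = (2 ^ m) * (2 ^ m) * (LinearMap.BilinForm.toMatrix b B).det := by
    have e : gram ⇑Q ⇑b = (2 : F) • LinearMap.BilinForm.toMatrix b B := by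
      ext i j
      simp [gram, hpol]
    rw [e, Matrix.det_smul, ← pow_add, ← two_mul, ← hV, Module.finrank_eq_card_basis b]
  have hsq : IsSquare ((-1) ^ m * (LinearMap.BilinForm.toMatrix b B).det) ↔
      IsSquare ((-1) ^ m * (gram ⇑Q ⇑b).det) := by
    rw [hgram]
    constructor
    · intro h
      obtain ⟨r, hr⟩ := h
      exact ⟨(2 : F) ^ m * r, by linear_combination ((2 : F) ^ m * (2 : F) ^ m) * hr⟩
    · intro h
      obtain ⟨r, hr⟩ := h
      refine ⟨((2 : F) ^ m)⁻¹ * r, ?_⟩
      have : (2 : F) ^ m ≠ 0 := pow_ne_zero _ h2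
      field_simp
      linear_combination hr
  obtain ⟨L⟩ : Nonempty (V ≃ₗ[F] (Fin m ⊕ Fin m → F)) :=
    ⟨LinearEquiv.ofFinrankEq _ _ (by simp [hV]; omega)⟩
  let P : QuadraticForm F V := (quadPlus F m).comp L.toLinearMap
  have hPpol : ∀ x y, polar P x y = polar (quadPlus F m) (L x) (L y) := fun x y => by
    simp [P, polar, map_add]
  have hP : (polarBilin P).Nondegenerate := nondegenerate_iff.2 fun x hx => L.injective <| by
    rw [map_zero]
    refine polar_ext (nondegenerate_quadPlus m) fun y => ?_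
    have := hx (L.symm y)
    simpa [hPpol] using this
  have hp : IsSquare ((-1) ^ m * (gram ⇑P ⇑b).det) := by
    set p : Module.Basis (Fin m ⊕ Fin m) F V := (Pi.basisFun F (Fin m ⊕ Fin m)).map L.symm
    have e : gram ⇑P ⇑p = gram ⇑(quadPlus F m) (Sum.elim (fun i => Pi.single (Sum.inl i) (1 : F))
        (fun i => Pi.single (Sum.inr i) 1)) := by
      ext i j
      simp only [gram, Matrix.of_apply, hPpol, p, Module.Basis.map_apply, LinearEquiv.apply_symm_apply,
        Pi.basisFun_apply]
      rcases i with i | i <;> rcases j with j | j <;> rfl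
    have hd := det_gram_pairs (standard_pairs (F := F) m)
    obtain ⟨e'⟩ : Nonempty (Fin m ⊕ Fin m ≃ ι) := ⟨p.indexEquiv b⟩
    have h1 := det_gram_change P p (b.reindex e'.symm)
    rw [show ⇑(b.reindex e'.symm) = ⇑b ∘ e' by ext i; simp, det_gram_reindex, e, hd] at h1
    rw [h1]
    refine ⟨(-1) ^ m * (p.toMatrix (⇑b ∘ e')).det, ?_⟩
    ring
  have hP0 : (gram ⇑P ⇑b).det ≠ 0 := by
    rw [gram_eq_toMatrix]
    exact (LinearMap.BilinForm.nondegenerate_iff_det_ne_zero b).1 hP
  rw [hsq]
  constructor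
  · rintro ⟨X, hXd, hX⟩
    obtain ⟨g, hg⟩ := exists_isometry_plus (m := m) hm hV hQ X
      (fun v hv => by rw [hQdef, LinearMap.BilinMap.toQuadraticMap_apply]; exact hX v hv v hv) hXd.ge
    set c := b.map (g.trans L.symm)
    have e : gram ⇑P ⇑c = gram ⇑Q ⇑b := by
      have hQg : ∀ x, quadPlus F m (g x) = Q x := fun x => by rw [coe_quadPlus]; exact hg x
      ext i j
      simp only [gram, Matrix.of_apply, hPpol, c, Module.Basis.map_apply, LinearEquiv.trans_apply, polar, ← map_add]
      simp only [P, QuadraticMap.comp_apply, LinearEquiv.coe_coe, LinearEquiv.apply_symm_apply, hQg]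
    obtain ⟨r, hr⟩ := hp
    rw [← e, det_gram_change P b c]
    refine ⟨(b.toMatrix c).det * r, ?_⟩
    rw [show (-1 : F) ^ m * ((b.toMatrix c).det ^ 2 * (gram ⇑P ⇑b).det) =
      (b.toMatrix c).det ^ 2 * ((-1) ^ m * (gram ⇑P ⇑b).det) by ring, hr]
    ring
  · intro h
    obtain ⟨g, hg⟩ := exists_isometry_of_isSquare h2 hP hQ b (by
      obtain ⟨r, hr⟩ := h.mul hp
      have h1 : ((-1 : F) ^ m) * (-1) ^ m = 1 := by rw [← mul_pow]; simp
      exact ⟨r, by linear_combination hr - ((gram ⇑P ⇑b).det * (gram ⇑Q ⇑b).det) * h1⟩)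
    let U : Submodule F (Fin m ⊕ Fin m → F) := LinearMap.ker (LinearMap.funLeft F F (Sum.inr : Fin m → Fin m ⊕ Fin m))
    have hU : Module.finrank F U = m := by
      have hs : Function.Surjective (LinearMap.funLeft F F (Sum.inr : Fin m → Fin m ⊕ Fin m)) := fun w =>
        ⟨Sum.elim 0 w, funext fun i => rfl⟩
      have := LinearMap.finrank_range_add_finrank_ker (LinearMap.funLeft F F (Sum.inr : Fin m → Fin m ⊕ Fin m))
      rw [LinearMap.range_eq_top.2 hs, finrank_top] at this
      simp at this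
      change Module.finrank F (LinearMap.ker (LinearMap.funLeft F F (Sum.inr : Fin m → Fin m ⊕ Fin m))) = m
      omega
    refine ⟨U.map ((L.symm.trans g) : (Fin m ⊕ Fin m → F) →ₗ[F] V),
      by rw [LinearEquiv.finrank_map_eq]; exact hU, hiso _ ?_⟩
    rintro _ ⟨u, hu, rfl⟩
    have hu0 : ∀ i, u (Sum.inr i) = 0 := fun i => congrFun (LinearMap.mem_ker.1 hu) i
    rw [LinearEquiv.coe_coe, LinearEquiv.trans_apply, hg]
    simp [P, Cfsg.quadFormPlus, hu0]

/-- Determinant of the matrix of a tensor product of forms. -/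
theorem det_toMatrix_tmul {U W : Type*} [AddCommGroup U] [Module F U] [AddCommGroup W] [Module F W] {ι κ : Type*}
    [Fintype ι] [DecidableEq ι] [Fintype κ] [DecidableEq κ] (bU : Module.Basis ι F U) (bW : Module.Basis κ F W)
    (B₁ : LinearMap.BilinForm F U) (B₂ : LinearMap.BilinForm F W) :
    (LinearMap.BilinForm.toMatrix (bU.tensorProduct bW) (B₁.tmul B₂)).det =
      (LinearMap.BilinForm.toMatrix bU B₁).det ^ Fintype.card κ *
        (LinearMap.BilinForm.toMatrix bW B₂).det ^ Fintype.card ι := by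
  have : LinearMap.BilinForm.toMatrix (bU.tensorProduct bW) (B₁.tmul B₂) =
      Matrix.kroneckerMap (· * ·) (LinearMap.BilinForm.toMatrix bU B₁) (LinearMap.BilinForm.toMatrix bW B₂) := by
    ext ⟨i, j⟩ ⟨i', j'⟩
    simp [LinearMap.BilinForm.tmul, mul_comm]
  rw [this, Matrix.det_kronecker]

theorem isSymm_tmul {U W : Type*} [AddCommGroup U] [Module F U] [AddCommGroup W] [Module F W]
    {B₁ : LinearMap.BilinForm F U} {B₂ : LinearMap.BilinForm F W} (h₁ : B₁.IsSymm) (h₂ : B₂.IsSymm) :
    (B₁.tmul B₂).IsSymm := by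
  refine ⟨fun x y => ?_⟩
  have hflip : LinearMap.flip (B₁.tmul B₂) = B₁.tmul B₂ := by
    refine TensorProduct.ext' fun a b => TensorProduct.ext' fun c d => ?_
    simp only [LinearMap.flip_apply, LinearMap.BilinForm.tmul, LinearMap.BilinForm.tensorDistrib_tmul]
    rw [h₁.eq c a, h₂.eq d b]
  conv_lhs => rw [← hflip]
  rfl

end CfsgLib.Forms
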